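import Cfsg.Agent.H562.PQR.Iface
import Cfsg.Agent.GH.LowRankMathieu
import Cfsg.Agent.SporadicA.MathieuRecog
import Cfsg.Agent.MTwelveType.SylowModel
import Cfsg.Agent.FooteOdd.SporMEleven
import Cfsg.Agent.S0364
import Cfsg.Agent.S2034
import Cfsg.Agent.S2035
import Cfsg.Agent.S2036
import Cfsg.Agent.S2037
import Cfsg.Agent.S2038

/-!
# S3988, rows `M11`, `M12`, `M22`, `M23`, `M24` (helper759)

Explicit triples `x y z = 1`, `x` a 2-element, `y` of order 3, `z` a `p`-element for `p = 5, 7, 11, 23`, so the part 3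
of the Schur multiplier does not matter.
-/

set_option autoImplicit false

namespace Cfsg.Agent.H759.PQR

open Cfsg Cfsg.Agent.H562.PQR Cfsg.Agent.GH.LowRankMathieu Cfsg.Agent.J4Type.CocodeMask
open Cfsg.Agent.SporadicA.GolayBase
open Cfsg.Agent.SporadicA.GolayPerm hiding pcomp papp_pcomp
open Cfsg.Agent.H80.Fpf (MultDvd multDvd_of_cyclic)
open scoped Pointwise

theorem sq_eq : Spor.squareDodecad = fin 340831 := by
  apply Finset.ext
  decide +kernel

/-- an element of `M₁₁` with a given table -/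
theorem mem_M11 {P : ℕ} (h : (isPerm P && isAut P) = true) (h1 : pimg P 340831 = 340831) (h2 : papp P 0 = 0) :
    ((mk P h : M24) : Equiv.Perm GolayPt) ∈ Spor.M11 := by
  have hP : isPerm P = true := by
    rw [Bool.and_eq_true] at h
    exact h.1
  refine ⟨⟨(mk P h).2, ?_⟩, ?_⟩
  · show _ ∈ MulAction.stabilizer _ _
    rw [MulAction.mem_stabilizer_iff, sq_eq]
    exact (smul_fin hP 340831).trans (by rw [h1])
  · show _ ∈ MulAction.stabilizer _ _
    rw [MulAction.mem_stabilizer_iff]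
    apply idx_injective
    show idx (((mk P h : M24) : Equiv.Perm GolayPt) (some 0)) = idx (some 0)
    rw [isTab_mk P h (some 0), idx_zero, h2]

theorem mem_M23 {P : ℕ} (h : (isPerm P && isAut P) = true) (h1 : papp P 23 = 23) :
    ((mk P h : M24) : Equiv.Perm GolayPt) ∈ Spor.M23 := by
  refine ⟨(mk P h).2, ?_⟩
  show _ ∈ MulAction.stabilizer _ _
  rw [MulAction.mem_stabilizer_iff]
  apply idx_injective
  show idx (((mk P h : M24) : Equiv.Perm GolayPt) none) = idx none
  rw [isTab_mk P h none, idx_none, h1]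

/-- table of a permutation -/
def Tab (g : Equiv.Perm GolayPt) (P : ℕ) : Prop := ∀ p : GolayPt, idx (g p) = papp P (idx p)

theorem Tab.mul {g h : Equiv.Perm GolayPt} {P Q : ℕ} (hg : Tab g P) (hh : Tab h Q) : Tab (g * h) (pcomp P Q) := by
  intro p
  rw [papp_pcomp P Q (idx_lt p), ← hh p, ← hg]
  rfl

theorem tab_one : Tab 1 pone := isTab_one

theorem Tab.eq {g h : Equiv.Perm GolayPt} {P : ℕ} (hg : Tab g P) (hh : Tab h P) : g = h := by
  apply Equiv.ext
  intro p
  apply idx_injective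
  rw [hg, hh]

/-- power of a table -/
def ppow (P : ℕ) : ℕ → ℕ
  | 0 => pone
  | n + 1 => pcomp (ppow P n) P

theorem Tab.pow {g : Equiv.Perm GolayPt} {P : ℕ} (hg : Tab g P) : ∀ n, Tab (g ^ n) (ppow P n)
  | 0 => by rw [pow_zero]; exact tab_one
  | n + 1 => by rw [pow_succ]; exact (hg.pow n).mul hg

theorem Tab.pow_eq_one {g : Equiv.Perm GolayPt} {P : ℕ} (hg : Tab g P) {n : ℕ} (h : ppow P n = pone) : g ^ n = 1 :=
  (hg.pow n).eq (h ▸ tab_one)

theorem Tab.ne_one {g : Equiv.Perm GolayPt} {P : ℕ} (hg : Tab g P) {i : ℕ} (hi : i < 24) (h : papp P i ≠ i) :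
    g ≠ 1 := by
  rintro rfl
  have h1 := hg (pt i)
  have h2 : idx (pt i) = i := by
    have h3 : ∀ j : Fin 24, idx (pt j) = j := by decide +kernel
    exact h3 ⟨i, hi⟩
  rw [Equiv.Perm.one_apply, h2] at h1
  exact h h1.symm

/-- the check of a 2-element `P`, an element `Q` of order 3, `P Q` a `p`-element -/
def chk (p : ℕ) (P Q i l a b c : ℕ) : Bool :=
  Nat.beq (ppow P (2 ^ i)) pone && Nat.beq (ppow Q 3) pone && Nat.beq (ppow (pcomp P Q) (p ^ l)) pone &&
    Nat.blt a 24 && Nat.blt b 24 && Nat.blt c 24 && !Nat.beq (papp P a) a && !Nat.beq (papp Q b) b &&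
    !Nat.beq (papp (pcomp P Q) c) c

theorem trip_of_chk {K : Subgroup (Equiv.Perm GolayPt)} {m : ℕ} (hm : MultDvd K m)
    (hm' : ∀ s : ℕ, s.Prime → s ∣ m → s = 2 ∨ s = 3) {p : ℕ} (hp : p.Prime) (h2 : 2 ≠ p) (h3 : 3 ≠ p) {x y : K}
    {P Q i l a b c : ℕ} (hx : Tab x P) (hy : Tab y Q) (h : chk p P Q i l a b c = true) : TripABC 2 3 p K := by
  unfold chk at h
  simp only [Bool.and_eq_true, Nat.beq_eq, Bool.not_eq_true', Nat.blt_eq] at h
  obtain ⟨⟨⟨⟨⟨⟨⟨⟨e1, e2⟩, e3⟩, ha⟩, hb⟩, hc⟩, na⟩, nb⟩, nc⟩ := h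
  have ne : ∀ {u v : ℕ}, Nat.beq u v = false → u ≠ v := by
    intro u v huv h
    rw [h, Nat.beq_refl] at huv
    exact absurd huv (by decide)
  have key : ∀ {q : ℕ} (_ : q.Prime) {z : K} {R n t : ℕ} (_ : Tab z R) (_ : ppow R (q ^ n) = pone) (_ : t < 24)
      (_ : papp R t ≠ t), PE q z := by
    intro q hq z R n t hz h1 ht h2
    refine ⟨fun h => hz.ne_one ht h2 (congrArg Subtype.val h), ?_⟩
    have h4 : z ^ q ^ n = 1 := Subtype.ext (hz.pow_eq_one h1)
    obtain ⟨j, -, hj⟩ := (Nat.dvd_prime_pow hq).1 (orderOf_dvd_of_pow_eq_one h4)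
    exact ⟨j, hj⟩
  have hxy : Tab ((x * y : K) : Equiv.Perm GolayPt) (pcomp P Q) := hx.mul hy
  refine TripABC.of_mult hm (fun s hs h => ?_) Nat.prime_two Nat.prime_three hp (by norm_num) h2 h3
    (key Nat.prime_two hx e1 ha (ne na)) (key Nat.prime_three (n := 1) hy e2 hb (ne nb))
    (key hp hxy e3 hc (ne nc)).inv (mul_inv_cancel (x * y))
  rcases hm' s hs h with h | h
  · exact Or.inl h
  · exact Or.inr (Or.inr (Or.inl h))

theorem not_prime_dvd_one {s : ℕ} (hs : s.Prime) (h : s ∣ 1) : s = 2 ∨ s = 3 :=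
  absurd (Nat.dvd_one.1 h) hs.one_lt.ne'

/-! ### the data -/

def X5 : ℕ := 858744987557589030038763264015616032
def Y5 : ℕ := 965387327213236783394459070686642464
def X11 : ℕ := 297889904300481246071970080215042624
def Y11 : ℕ := 594828054250596267137404573885665792

theorem okX5 : (isPerm X5 && isAut X5) = true := by decide +kernel
theorem okY5 : (isPerm Y5 && isAut Y5) = true := by decide +kernel
theorem okX11 : (isPerm X11 && isAut X11) = true := by decide +kernel
theorem okY11 : (isPerm Y11 && isAut Y11) = true := by decide +kernel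

def A5 : ℕ := 983221043813328426561100639796244704
def B5 : ℕ := 984347974429069799681770055641712224
def A7 : ℕ := 982939542848543621274871607542748768
def B7 : ℕ := 984804888171720684873816987742028256
def A11 : ℕ := 969970289749353299053877192376633408
def B11 : ℕ := 960073669110977755758225290057788640
def A23 : ℕ := 971264208093517430473990687215272961
def B23 : ℕ := 969280404778191350925093766198402086

theorem okA5 : (isPerm A5 && isAut A5) = true := by decide +kernel
theorem okB5 : (isPerm B5 && isAut B5) = true := by decide +kernel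
theorem okA7 : (isPerm A7 && isAut A7) = true := by decide +kernel
theorem okB7 : (isPerm B7 && isAut B7) = true := by decide +kernel
theorem okA11 : (isPerm A11 && isAut A11) = true := by decide +kernel
theorem okB11 : (isPerm B11 && isAut B11) = true := by decide +kernel
theorem okA23 : (isPerm A23 && isAut A23) = true := by decide +kernel
theorem okB23 : (isPerm B23 && isAut B23) = true := by decide +kernel

theorem c5 : chk 5 X5 Y5 3 1 2 1 1 = true := by decide +kernel
theorem c11 : chk 11 X11 Y11 3 1 1 1 1 = true := by decide +kernel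
theorem d5 : chk 5 A5 B5 2 1 1 1 1 = true := by decide +kernel
theorem d7 : chk 7 A7 B7 3 1 1 1 2 = true := by decide +kernel
theorem d11 : chk 11 A11 B11 2 1 1 1 1 = true := by decide +kernel
theorem d23 : chk 23 A23 B23 3 1 0 0 0 = true := by decide +kernel

/-! ### the rows -/

section General

variable {K : Subgroup (Equiv.Perm GolayPt)} {m : ℕ}

theorem trip_three {p : ℕ} (h : TripABC 2 3 p K) : Trip 3 K := ⟨2, 3, p, Or.inr (Or.inl rfl), Or.inl rfl, h⟩

theorem trip_self {p : ℕ} (h : TripABC 2 3 p K) : Trip p K := ⟨2, 3, p, Or.inr (Or.inr rfl), Or.inl rfl, h⟩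

theorem small (hm : MultDvd K m) (hm' : ∀ s : ℕ, s.Prime → s ∣ m → s = 2 ∨ s = 3) (hK : Spor.M11 ≤ K) :
    TripABC 2 3 5 K ∧ TripABC 2 3 11 K := by
  constructor
  · exact trip_of_chk hm hm' (by norm_num) (by norm_num) (by norm_num)
      (x := ⟨_, hK (mem_M11 okX5 (by decide +kernel) (by decide +kernel))⟩)
      (y := ⟨_, hK (mem_M11 okY5 (by decide +kernel) (by decide +kernel))⟩) (isTab_mk _ okX5) (isTab_mk _ okY5) c5
  · exact trip_of_chk hm hm' (by norm_num) (by norm_num) (by norm_num)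
      (x := ⟨_, hK (mem_M11 okX11 (by decide +kernel) (by decide +kernel))⟩)
      (y := ⟨_, hK (mem_M11 okY11 (by decide +kernel) (by decide +kernel))⟩) (isTab_mk _ okX11) (isTab_mk _ okY11) c11

theorem large (hm : MultDvd K m) (hm' : ∀ s : ℕ, s.Prime → s ∣ m → s = 2 ∨ s = 3) (hK : Spor.M22 ≤ K) :
    TripABC 2 3 5 K ∧ TripABC 2 3 7 K ∧ TripABC 2 3 11 K := by
  refine ⟨?_, ?_, ?_⟩
  · exact trip_of_chk hm hm' (by norm_num) (by norm_num) (by norm_num)
      (x := ⟨_, hK (mem_M22 okA5 (by decide +kernel) (by decide +kernel))⟩)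
      (y := ⟨_, hK (mem_M22 okB5 (by decide +kernel) (by decide +kernel))⟩) (isTab_mk _ okA5) (isTab_mk _ okB5) d5
  · exact trip_of_chk hm hm' (by norm_num) (by norm_num) (by norm_num)
      (x := ⟨_, hK (mem_M22 okA7 (by decide +kernel) (by decide +kernel))⟩)
      (y := ⟨_, hK (mem_M22 okB7 (by decide +kernel) (by decide +kernel))⟩) (isTab_mk _ okA7) (isTab_mk _ okB7) d7
  · exact trip_of_chk hm hm' (by norm_num) (by norm_num) (by norm_num)
      (x := ⟨_, hK (mem_M22 okA11 (by decide +kernel) (by decide +kernel))⟩)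
      (y := ⟨_, hK (mem_M22 okB11 (by decide +kernel) (by decide +kernel))⟩) (isTab_mk _ okA11) (isTab_mk _ okB11) d11

theorem large23 (hm : MultDvd K m) (hm' : ∀ s : ℕ, s.Prime → s ∣ m → s = 2 ∨ s = 3) (hK : Spor.M23 ≤ K) :
    TripABC 2 3 23 K :=
  trip_of_chk hm hm' (by norm_num) (by norm_num) (by norm_num)
      (x := ⟨_, hK (mem_M23 okA23 (by decide +kernel))⟩)
      (y := ⟨_, hK (mem_M23 okB23 (by decide +kernel))⟩) (isTab_mk _ okA23) (isTab_mk _ okB23) d23

end General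

theorem p_m12 {p : ℕ} (hp : p.Prime) (h2 : p ≠ 2) (h : p ∣ 95040) : p = 3 ∨ p = 5 ∨ p = 11 := by
  have h1 : (95040 : ℕ) = 2 ^ 6 * (3 ^ 3 * (5 * 11)) := by norm_num
  rw [h1] at h
  rcases hp.dvd_mul.1 h with h | h
  · exact absurd ((Nat.prime_dvd_prime_iff_eq hp Nat.prime_two).1 (hp.dvd_of_dvd_pow h)) h2
  rcases hp.dvd_mul.1 h with h | h
  · exact Or.inl ((Nat.prime_dvd_prime_iff_eq hp Nat.prime_three).1 (hp.dvd_of_dvd_pow h))
  rcases hp.dvd_mul.1 h with h | h
  · exact Or.inr (Or.inl ((Nat.prime_dvd_prime_iff_eq hp (by norm_num)).1 h))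
  · exact Or.inr (Or.inr ((Nat.prime_dvd_prime_iff_eq hp (by norm_num)).1 h))

theorem p_m24 {p : ℕ} (hp : p.Prime) (h2 : p ≠ 2) (h : p ∣ 244823040) : p = 3 ∨ p = 5 ∨ p = 7 ∨ p = 11 ∨ p = 23 := by
  have h1 : (244823040 : ℕ) = 2 ^ 10 * (3 ^ 3 * (5 * (7 * (11 * 23)))) := by norm_num
  rw [h1] at h
  rcases hp.dvd_mul.1 h with h | h
  · exact absurd ((Nat.prime_dvd_prime_iff_eq hp Nat.prime_two).1 (hp.dvd_of_dvd_pow h)) h2
  rcases hp.dvd_mul.1 h with h | h
  · exact Or.inl ((Nat.prime_dvd_prime_iff_eq hp Nat.prime_three).1 (hp.dvd_of_dvd_pow h))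
  rcases hp.dvd_mul.1 h with h | h
  · exact Or.inr (Or.inl ((Nat.prime_dvd_prime_iff_eq hp (by norm_num)).1 h))
  rcases hp.dvd_mul.1 h with h | h
  · exact Or.inr (Or.inr (Or.inl ((Nat.prime_dvd_prime_iff_eq hp (by norm_num)).1 h)))
  rcases hp.dvd_mul.1 h with h | h
  · exact Or.inr (Or.inr (Or.inr (Or.inl ((Nat.prime_dvd_prime_iff_eq hp (by norm_num)).1 h))))
  · exact Or.inr (Or.inr (Or.inr (Or.inr ((Nat.prime_dvd_prime_iff_eq hp (by norm_num)).1 h))))

theorem p_m22 {p : ℕ} (hp : p.Prime) (h2 : p ≠ 2) (h : p ∣ 443520) : p = 3 ∨ p = 5 ∨ p = 7 ∨ p = 11 := by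
  rcases p_m24 hp h2 (h.trans (by norm_num)) with h1 | h1 | h1 | h1 | h1
  · exact Or.inl h1
  · exact Or.inr (Or.inl h1)
  · exact Or.inr (Or.inr (Or.inl h1))
  · exact Or.inr (Or.inr (Or.inr h1))
  · subst h1
    norm_num at h

/-- `M11` -/
theorem row_M11 : RowOdd Spor.M11 := by
  intro p hp h2 hd
  rw [Cfsg.Agent.FooteOdd.SporMEleven.card] at hd
  have hs := small (multDvd_of_cyclic one_ne_zero Cfsg.Agent.S2034.result) (fun s hs h => not_prime_dvd_one hs h)
    (le_refl Spor.M11)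
  rcases p_m12 hp h2 (hd.trans (by norm_num)) with rfl | rfl | rfl
  · exact Or.inr (trip_three hs.1)
  · exact Or.inr (trip_self hs.1)
  · exact Or.inr (trip_self hs.2)

/-- `M12` -/
theorem row_M12 : RowOdd Spor.M12 := by
  intro p hp h2 hd
  rw [Cfsg.Agent.MTwelveType.SylowModel.card_M12] at hd
  have hs := small (K := Spor.M12) (multDvd_of_cyclic two_ne_zero Cfsg.Agent.S2035.result)
    (fun s hs h => Or.inl ((Nat.prime_dvd_prime_iff_eq hs Nat.prime_two).1 h)) (fun _ h => h.1)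
  rcases p_m12 hp h2 hd with rfl | rfl | rfl
  · exact Or.inr (trip_three hs.1)
  · exact Or.inr (trip_self hs.1)
  · exact Or.inr (trip_self hs.2)

theorem dvd_twelve {s : ℕ} (hs : s.Prime) (h : s ∣ 12) : s = 2 ∨ s = 3 := by
  have h1 : (12 : ℕ) = 2 ^ 2 * 3 := by norm_num
  rw [h1] at h
  rcases hs.dvd_mul.1 h with h | h
  · exact Or.inl ((Nat.prime_dvd_prime_iff_eq hs Nat.prime_two).1 (hs.dvd_of_dvd_pow h))
  · exact Or.inr ((Nat.prime_dvd_prime_iff_eq hs Nat.prime_three).1 h)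

/-- `M22` -/
theorem row_M22 : RowOdd Spor.M22 := by
  intro p hp h2 hd
  rw [Cfsg.Agent.SporadicA.MathieuRecog.card_M22] at hd
  have hs := large (K := Spor.M22) (multDvd_of_cyclic (by norm_num) Cfsg.Agent.S2036.result)
    (fun s hs h => dvd_twelve hs h) le_rfl
  rcases p_m22 hp h2 hd with rfl | rfl | rfl | rfl
  · exact Or.inr (trip_three hs.1)
  · exact Or.inr (trip_self hs.1)
  · exact Or.inr (trip_self hs.2.1)
  · exact Or.inr (trip_self hs.2.2)

/-- `M23` -/
theorem row_M23 : RowOdd Spor.M23 := by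
  intro p hp h2 hd
  rw [Cfsg.Agent.SporadicA.MathieuRecog.card_M23] at hd
  have hs := large (K := Spor.M23) (multDvd_of_cyclic one_ne_zero Cfsg.Agent.S2037.result)
    (fun s hs h => not_prime_dvd_one hs h) (fun _ h => h.1)
  have ht := large23 (K := Spor.M23) (multDvd_of_cyclic one_ne_zero Cfsg.Agent.S2037.result)
    (fun s hs h => not_prime_dvd_one hs h) le_rfl
  rcases p_m24 hp h2 (hd.trans (by norm_num)) with rfl | rfl | rfl | rfl | rfl
  · exact Or.inr (trip_three hs.1)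
  · exact Or.inr (trip_self hs.1)
  · exact Or.inr (trip_self hs.2.1)
  · exact Or.inr (trip_self hs.2.2)
  · exact Or.inr (trip_self ht)

/-- `M24` -/
theorem row_M24 : RowOdd M24 := by
  intro p hp h2 hd
  rw [Cfsg.Agent.S0364.result] at hd
  have hs := large (K := M24) (multDvd_of_cyclic one_ne_zero Cfsg.Agent.S2038.result)
    (fun s hs h => not_prime_dvd_one hs h) (fun _ h => h.1.1)
  have ht := large23 (K := M24) (multDvd_of_cyclic one_ne_zero Cfsg.Agent.S2038.result)
    (fun s hs h => not_prime_dvd_one hs h) (fun _ h => h.1)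
  rcases p_m24 hp h2 hd with rfl | rfl | rfl | rfl | rfl
  · exact Or.inr (trip_three hs.1)
  · exact Or.inr (trip_self hs.1)
  · exact Or.inr (trip_self hs.2.1)
  · exact Or.inr (trip_self hs.2.2)
  · exact Or.inr (trip_self ht)

end Cfsg.Agent.H759.PQR
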